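import Mathlib

/-!
# Elements with `k` cycles of length `a` of the alternating groups: the order of the centralizer

* `exists_rep` : an element of order `a` with centralizer of order dividing `(n - k a)! a ^ k k!`;
* `desc_dvd` : `n (n-1) ... (n - k a + 1)` divides `a ^ k k! 2 |class|`;
* `dvd_index` : an odd prime `q ≤ n` not dividing `a`, larger than `n - k a`, divides the size of the class.
-/

set_option autoImplicit false

namespace Cfsg.Agent.H588.AltElt

open Equiv.Perm Subgroup

/-- The order of a centralizer in the alternating group divides the order in the symmetric group. -/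
theorem card_centralizer_dvd {n : ℕ} (x : alternatingGroup (Fin n)) :
    Nat.card (centralizer ({x} : Set (alternatingGroup (Fin n)))) ∣
      Nat.card (centralizer ({(x : Equiv.Perm (Fin n))} : Set (Equiv.Perm (Fin n)))) := by
  have h2 : Nat.card ((centralizer ({x} : Set (alternatingGroup (Fin n)))).map (alternatingGroup (Fin n)).subtype) =
      Nat.card (centralizer ({x} : Set (alternatingGroup (Fin n)))) :=
    Subgroup.card_map_of_injective (Subgroup.subtype_injective _)
  rw [← h2]
  apply Subgroup.card_dvd_of_le
  rintro _ ⟨g, hg, rfl⟩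
  rw [mem_centralizer_singleton_iff]
  exact congrArg Subtype.val (mem_centralizer_singleton_iff.1 hg)

/-- An even permutation with `k` cycles of length `a`. -/
theorem exists_rep {n k a : ℕ} (hk : k ≠ 0) (ha : 2 ≤ a) (hn : k * a ≤ n) (he : Even (k * a + k)) :
    ∃ x : alternatingGroup (Fin n), orderOf x = a ∧
      Nat.card (centralizer ({x} : Set (alternatingGroup (Fin n)))) ∣ (n - k * a).factorial * a ^ k * k.factorial := by
  obtain ⟨c, hc⟩ := (exists_with_cycleType_iff (Fin n) (m := Multiset.replicate k a)).2 (by
    constructor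
    · rw [Multiset.sum_replicate, smul_eq_mul, Fintype.card_fin]
      exact hn
    · intro b hb
      rw [Multiset.eq_of_mem_replicate hb]
      exact ha)
  have hsign : c ∈ alternatingGroup (Fin n) := by
    rw [mem_alternatingGroup, sign_of_cycleType, hc, Multiset.sum_replicate, Multiset.card_replicate, smul_eq_mul]
    exact he.neg_one_pow
  have hord : orderOf c = a := by
    rw [← lcm_cycleType, hc]
    apply Nat.dvd_antisymm
    · exact Multiset.lcm_dvd.2 fun b hb => by rw [Multiset.eq_of_mem_replicate hb]
    · exact Multiset.dvd_lcm (Multiset.mem_replicate.2 ⟨hk, rfl⟩)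
  refine ⟨⟨c, hsign⟩, by rw [Subgroup.orderOf_mk, hord], ?_⟩
  refine (card_centralizer_dvd _).trans ?_
  rw [nat_card_centralizer]
  show (Fintype.card (Fin n) - c.cycleType.sum).factorial * c.cycleType.prod *
    ∏ n ∈ c.cycleType.toFinset, (c.cycleType.count n).factorial ∣ _
  rw [hc, Multiset.sum_replicate, Multiset.prod_replicate, Multiset.toFinset_replicate, if_neg hk, smul_eq_mul,
    Fintype.card_fin, Finset.prod_singleton, Multiset.count_replicate_self]

theorem two_mul_card {n : ℕ} (hn : 2 ≤ n) : 2 * Nat.card (alternatingGroup (Fin n)) = n.factorial := by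
  have : Nontrivial (Fin n) := Fin.nontrivial_iff_two_le.2 hn
  rw [two_mul_nat_card_alternatingGroup, Nat.card_perm, Nat.card_eq_fintype_card, Fintype.card_fin]

theorem desc_dvd {n s D : ℕ} (hn : 2 ≤ n) (hs : s ≤ n) {x : alternatingGroup (Fin n)}
    (h : Nat.card (centralizer ({x} : Set (alternatingGroup (Fin n)))) ∣ (n - s).factorial * D) :
    n.descFactorial s ∣ D * 2 * (centralizer ({x} : Set (alternatingGroup (Fin n)))).index := by
  have h3 := Subgroup.card_mul_index (centralizer ({x} : Set (alternatingGroup (Fin n))))
  have h4 := two_mul_card hn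
  have h5 : n.descFactorial s * (n - s).factorial = n.factorial := by
    rw [mul_comm]; exact Nat.factorial_mul_descFactorial hs
  obtain ⟨d, hd⟩ := h
  set C := Nat.card (centralizer ({x} : Set (alternatingGroup (Fin n)))) with hC
  set I := (centralizer ({x} : Set (alternatingGroup (Fin n)))).index with hI
  refine ⟨d, ?_⟩
  have hpos : 0 < (n - s).factorial := Nat.factorial_pos _
  apply Nat.eq_of_mul_eq_mul_left hpos
  calc (n - s).factorial * (D * 2 * I) = ((n - s).factorial * D) * 2 * I := by ring
    _ = d * (2 * (C * I)) := by rw [hd]; ring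
    _ = d * n.factorial := by rw [h3, h4]
    _ = (n - s).factorial * (n.descFactorial s * d) := by rw [← h5]; ring

/-- An odd prime `q ≤ n` not dividing `a`, larger than `n - k a`, divides the size of the class. -/
theorem dvd_index {n k a q : ℕ} (hn : 2 ≤ n) (ha : 2 ≤ a) (hkn : k * a ≤ n) {x : alternatingGroup (Fin n)}
    (h : Nat.card (centralizer ({x} : Set (alternatingGroup (Fin n)))) ∣
      (n - k * a).factorial * a ^ k * k.factorial)
    (hq : q.Prime) (hq2 : q ≠ 2) (hqa : ¬ q ∣ a) (hqn : q ≤ n) (hqk : n - k * a < q) :
    q ∣ (centralizer ({x} : Set (alternatingGroup (Fin n)))).index := by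
  rw [mul_assoc] at h
  have h1 := desc_dvd hn hkn h
  set I := (centralizer ({x} : Set (alternatingGroup (Fin n)))).index with hI
  have h2 : q ∣ a ^ k * 2 * I := by
    by_cases hk : q ≤ k * (a - 1)
    · have h3 : k.factorial * (k * (a - 1)).factorial ∣ (k * a).factorial := by
        have h4 : k * a = k + k * (a - 1) := by
          obtain ⟨b, rfl⟩ : ∃ b, a = b + 1 := ⟨a - 1, by omega⟩
          rw [Nat.add_sub_cancel]; ring
        rw [h4]
        exact Nat.factorial_mul_factorial_dvd_factorial_add _ _
      have h5 : q ∣ (k * (a - 1)).factorial := (hq.dvd_factorial).2 hk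
      have h6 : k.factorial * q ∣ a ^ k * k.factorial * 2 * I :=
        ((Nat.mul_dvd_mul_left _ h5).trans h3).trans ((Nat.factorial_dvd_descFactorial n (k * a)).trans h1)
      have h7 : a ^ k * k.factorial * 2 * I = k.factorial * (a ^ k * 2 * I) := by ring
      rw [h7] at h6
      exact Nat.dvd_of_mul_dvd_mul_left (Nat.factorial_pos _) h6
    · have h3 : q ∣ n.descFactorial (k * a) := by
        have h4 : q ∣ n.factorial := (hq.dvd_factorial).2 hqn
        rw [← Nat.factorial_mul_descFactorial hkn] at h4
        refine (hq.dvd_mul.1 h4).resolve_left fun h5 => ?_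
        have := (hq.dvd_factorial).1 h5
        omega
      have h4 := h3.trans h1
      have h5 : ¬ q ∣ k.factorial := by
        rw [hq.dvd_factorial]
        have h6 : k * 1 ≤ k * (a - 1) := Nat.mul_le_mul_left k (by omega)
        omega
      have h7 : a ^ k * k.factorial * 2 * I = k.factorial * (a ^ k * 2 * I) := by ring
      rw [h7] at h4
      exact (hq.dvd_mul.1 h4).resolve_left h5
  rcases hq.dvd_mul.1 h2 with h3 | h3
  · exfalso
    rcases hq.dvd_mul.1 h3 with h4 | h4
    · exact hqa (hq.dvd_of_dvd_pow h4)
    · exact hq2 ((Nat.prime_dvd_prime_iff_eq hq Nat.prime_two).1 h4)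
  · exact h3

theorem le_of_dvd_card {n q : ℕ} (hn : 2 ≤ n) (hq : q.Prime) (hd : q ∣ Nat.card (alternatingGroup (Fin n))) :
    q ≤ n := by
  rw [← hq.dvd_factorial, ← two_mul_card hn]
  exact hd.mul_left _

end Cfsg.Agent.H588.AltElt
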